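/-
Centralizers, in a finite group with a Sylow p-subgroup of maximal class, of the elements outside
all two-step centralizers.
-/
import Cfsg.Agent.Lib.MaxClassP.Periodic

set_option autoImplicit false
set_option linter.style.haveILetI false

open scoped commutatorElement Pointwise

namespace CfsgLib.MaxClassP

universe u

variable {G : Type u} [Group G] {P : Subgroup G}

/-- The term of order `p ^ k` of the upper central series of the maximal class subgroup `P`. -/
def W (P : Subgroup G) (n k : ℕ) : Subgroup G := (L P (n - 1 - k)).map P.subtype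

theorem W_le (n k : ℕ) : W P n k ≤ P := Subgroup.map_subtype_le _

theorem W_mono {n i j : ℕ} (h : i ≤ j) : W P n i ≤ W P n j :=
  Subgroup.map_mono (L_mono (by omega))

theorem mem_W {n k : ℕ} {x : P} : (x : G) ∈ W P n k ↔ x ∈ L P (n - 1 - k) :=
  ⟨fun ⟨_, hy, hyx⟩ => P.subtype_injective hyx ▸ hy, fun h => ⟨x, h, rfl⟩⟩

/-- The condition of centralizing the first `k` central factors. -/
def Stab (P : Subgroup G) (n k : ℕ) (g : G) : Prop :=
  ∀ j < k, ∀ w ∈ W P n (j + 1), ⁅g, w⁆ ∈ W P n j

variable [Finite G] {p n : ℕ} [hp : Fact p.Prime] (h : MC p n P)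

include h in
theorem W_zero : W P n 0 = ⊥ := by
  rw [W, L_eq_bot h (by have := h.three_le; omega), Subgroup.map_bot]

include h in
theorem Stab.conj_mem {k : ℕ} {g : G} (hg : Stab P n k g) {j : ℕ} (hj : j ≤ k) {w : G}
    (hw : w ∈ W P n j) : g * w * g⁻¹ ∈ W P n j := by
  cases j with
  | zero =>
    rw [W_zero h, Subgroup.mem_bot] at hw ⊢
    rw [hw, mul_one, mul_inv_cancel]
  | succ j =>
    rw [show g * w * g⁻¹ = ⁅g, w⁆ * w by rw [commutatorElement_def]; group]
    exact mul_mem (W_mono j.le_succ (hg j hj w hw)) hw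

/-- The stabilizer of the first `k` central factors. -/
def stab (k : ℕ) : Subgroup G where
  carrier := {g | Stab P n k g}
  one_mem' j _ w _ := by simp
  mul_mem' := by
    intro g g' hg hg' j hj w hw
    rw [show ⁅g * g', w⁆ = g * ⁅g', w⁆ * g⁻¹ * ⁅g, w⁆ by simp only [commutatorElement_def]; group]
    exact mul_mem (Stab.conj_mem h hg hj.le (hg' j hj w hw)) (hg j hj w hw)
  inv_mem' := by
    intro g hg j hj w hw
    obtain ⟨m, hm⟩ : ∃ m : ℕ, g⁻¹ = g ^ m := ⟨Nat.card G - 1, inv_eq_of_mul_eq_one_right (by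
      rw [← pow_succ', Nat.sub_add_cancel Nat.card_pos, pow_card_eq_one'])⟩
    have key : ∀ m : ℕ, ⁅g ^ m, w⁆ ∈ W P n j := by
      intro m
      induction m with
      | zero => simp
      | succ m ih =>
        rw [pow_succ', show ⁅g * g ^ m, w⁆ = g * ⁅g ^ m, w⁆ * g⁻¹ * ⁅g, w⁆ by
          simp only [commutatorElement_def]; group]
        exact mul_mem (Stab.conj_mem h hg hj.le ih) (hg j hj w hw)
    rw [hm]; exact key m

include h in
theorem le_stab {k : ℕ} (hk : k + 1 ≤ n) : P ≤ stab h k := by
  intro g hg j hj w hw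
  obtain ⟨w, hw', rfl⟩ := hw
  have h1 := commutator_mem_succ hw' (⟨g, hg⟩ : P)
  rw [show n - 1 - (j + 1) + 1 = n - 1 - j by omega] at h1
  have h2 := (mem_W (P := P) (n := n) (k := j)).2 h1
  rw [← commutatorElement_inv]
  exact inv_mem h2

theorem stab_succ_le {k : ℕ} : stab h (k + 1) ≤ stab h k := fun _ hg j hj => hg j (by omega)

/-- The preimage of the centralizer of `s` modulo the `k`-th central term. -/
def centMod (s : G) (k : ℕ) : Subgroup G where
  carrier := {g | g ∈ stab h k ∧ ⁅g, s⁆ ∈ W P n k}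
  one_mem' := ⟨one_mem _, by simp⟩
  mul_mem' := by
    intro g g' hg hg'
    refine ⟨mul_mem hg.1 hg'.1, ?_⟩
    rw [show ⁅g * g', s⁆ = g * ⁅g', s⁆ * g⁻¹ * ⁅g, s⁆ by simp only [commutatorElement_def]; group]
    exact mul_mem (Stab.conj_mem h hg.1 le_rfl hg'.2) hg.2
  inv_mem' := by
    intro g hg
    refine ⟨inv_mem hg.1, ?_⟩
    rw [show ⁅g⁻¹, s⁆ = g⁻¹ * ⁅g, s⁆⁻¹ * g⁻¹⁻¹ by simp only [commutatorElement_def]; group]
    exact Stab.conj_mem h (inv_mem hg.1) le_rfl (inv_mem hg.2)

include h in
theorem card_W {k : ℕ} (hk : k + 2 ≤ n) : Nat.card (W P n k) = p ^ k := by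
  rw [W, Subgroup.card_map_of_injective P.subtype_injective, card_L h (by omega) (by omega)]
  congr 1; omega

variable {s : P} (hs : Small n s)

/-- The subgroup generated by `s` and a central term. -/
def line (s : P) (n k : ℕ) : Subgroup G :=
  (Subgroup.zpowers s ⊔ L P (n - 1 - k)).map P.subtype

include h in
theorem line_le_centMod {k : ℕ} (hk : k + 3 ≤ n) : line s n (k + 1) ≤ centMod h (s : G) k := by
  rw [line, Subgroup.map_le_iff_le_comap, sup_le_iff, Subgroup.zpowers_le]
  refine ⟨⟨le_stab h (by omega) s.2, ?_⟩, fun w hw => ⟨le_stab h (by omega) w.2, ?_⟩⟩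
  · show ⁅(s : G), (s : G)⁆ ∈ _
    rw [commutatorElement_self]; exact one_mem _
  · have h1 := commutator_mem_succ hw s
    rw [show n - 1 - (k + 1) + 1 = n - 1 - k by omega] at h1
    exact mem_W.2 h1

include h hs in
theorem card_line {k : ℕ} (hk : k + 2 ≤ n) (hk1 : 1 ≤ k) : Nat.card (line s n k) = p ^ (k + 1) := by
  rw [line, Subgroup.card_map_of_injective P.subtype_injective, card_sup_L h hs (by omega) (by omega)]
  congr 1; omega

include h hs in
theorem exists_step {j : ℕ} (hj : 1 ≤ j) (hjn : j + 2 ≤ n) :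
    ∃ w : P, w ∈ L P (j - 1) ∧ w ∉ Subgroup.zpowers s ⊔ L P j ∧
      ⁅w, s⁆ ∈ L P j ∧ ⁅w, s⁆ ∉ L P (j + 1) := by
  have hex : ∃ w : P, w ∈ L P (j - 1) ∧ w ∉ Subgroup.zpowers s ⊔ L P j := by
    by_contra! hall
    rcases Nat.lt_or_ge j 2 with hj2 | hj2
    · obtain rfl : j = 1 := by omega
      have htop : Subgroup.zpowers s ⊔ L P 1 = ⊤ :=
        top_le_iff.1 fun x _ => hall x (Subgroup.mem_top x)
      have h1 := card_sup_L h hs (j := 1) le_rfl (by omega)
      rw [htop, Subgroup.card_top, h.card] at h1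
      have := Nat.pow_right_injective hp.out.two_le h1
      omega
    · refine (L_succ_lt h (j := j - 1) (by omega)).not_ge fun w hw => ?_
      rw [show j - 1 + 1 = j by omega]
      obtain ⟨a, ha, b, hb, rfl⟩ := Subgroup.mem_sup_of_normal_right.1 (hall w hw)
      obtain ⟨i, rfl⟩ := Subgroup.mem_zpowers_iff.1 ha
      refine mul_mem ?_ hb
      have hi : s ^ i ∈ L P 1 := by
        have := mul_mem (L_mono (i := 1) (by omega) hw) (inv_mem (L_mono (i := 1) (by omega) hb))
        rwa [mul_inv_cancel_right] at this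
      by_cases hdvd : (p : ℤ) ∣ i
      · obtain ⟨l, rfl⟩ := hdvd
        rw [zpow_mul, zpow_natCast]
        exact zpow_mem (L_mono (by omega) (pow_mem_top h hs)) l
      · obtain ⟨a', b', hab⟩ :=
          ((Nat.prime_iff_prime_int.1 hp.out).irreducible.coprime_iff_not_dvd).2 hdvd
        refine absurd ?_ hs.1
        rw [show s = (s ^ p) ^ a' * (s ^ i) ^ b' by
          rw [← zpow_natCast s p, ← zpow_mul, ← zpow_mul, ← zpow_add, mul_comm (p : ℤ), mul_comm i,
            hab, zpow_one]]
        exact mul_mem (zpow_mem (pow_mem_L_one h s) a') (zpow_mem hi b')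
  obtain ⟨w, hw, hw'⟩ := hex
  refine ⟨w, hw, hw', ?_, fun hc => hw' ?_⟩
  · have := commutator_mem_succ hw s
    rwa [show j - 1 + 1 = j by omega] at this
  · have := mem_sup_of_commutator_mem h hs (m := j + 1) (by omega) (by omega) hc
    simpa using this

include h hs in
/-- The key bound: p-subgroups fixing `s` modulo the `k`-th central term are small. -/
theorem card_le_centMod (N : Subgroup G) [N.Normal]
    (hN : ∀ k, k ≤ 1 → k + 3 ≤ n → W P n (k + 1) ≤ N) (hsN : (s : G) ∉ N)
    (hSyl : ∀ R : Subgroup G, IsPGroup p R → Nat.card R ≤ p ^ n) {k : ℕ} (hk : k + 2 ≤ n) :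
    ∀ R : Subgroup G, IsPGroup p R → R ≤ centMod h (s : G) k → Nat.card R ≤ p ^ (k + 2) := by
  induction hm : n - k using Nat.strong_induction_on generalizing k with
  | _ m ih =>
    intro R hR hRT
    rcases Nat.lt_or_ge (k + 2) n with hkn | hkn
    swap
    · rw [show k + 2 = n by omega]; exact hSyl R hR
    by_contra! hbig
    have hIH := ih _ (by omega) (k := k + 1) (by omega) rfl
    set T := centMod h (s : G) k with hT
    set A := line s n (k + 1) with hA
    have hAT : A ≤ T := line_le_centMod h (by omega)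
    have hAcard : Nat.card A = p ^ (k + 2) := card_line h hs (by omega) (by omega)
    have hAp : IsPGroup p A := IsPGroup.of_card hAcard
    -- a p-subgroup of `T` properly containing `A`
    obtain ⟨Q, hQ⟩ := (hAp.comap_of_injective T.subtype T.subtype_injective).exists_le_sylow
    obtain ⟨Q', hQ'⟩ := (hR.comap_of_injective T.subtype T.subtype_injective).exists_le_sylow
    have hQcard : p ^ (k + 2) < Nat.card (Q : Subgroup T) := by
      refine lt_of_lt_of_le hbig ?_
      rw [show Nat.card (Q : Subgroup T) = Nat.card (Q' : Subgroup T) from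
        (Q.card_eq_multiplicity).trans Q'.card_eq_multiplicity.symm,
        ← Nat.card_congr (Subgroup.subgroupOfEquivOfLe hRT).toEquiv]
      exact Subgroup.card_le_of_le hQ'
    set R' := (Q : Subgroup T).map T.subtype with hR'
    have hR'p : IsPGroup p R' := Q.2.map _
    have hR'T : R' ≤ T := Subgroup.map_subtype_le _
    have hAR' : A ≤ R' := fun x hx =>
      Subgroup.mem_map.2 ⟨⟨x, hAT hx⟩, hQ (show (⟨x, hAT hx⟩ : T) ∈ A.subgroupOf T from hx), rfl⟩
    have hR'card : Nat.card R' = Nat.card (Q : Subgroup T) :=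
      Subgroup.card_map_of_injective T.subtype_injective
    have hlt : A < R' := lt_of_le_of_ne hAR' fun he => by
      rw [← hR'card, ← he, hAcard] at hQcard
      exact lt_irrefl _ hQcard
    have := hR'p.isNilpotent
    have hlt' : A.subgroupOf R' < Subgroup.normalizer (A.subgroupOf R' : Set R') :=
      Group.normalizerCondition_of_isNilpotent _ (lt_top_iff_ne_top.2 fun he =>
        hlt.not_ge (Subgroup.subgroupOf_eq_top.1 he))
    obtain ⟨a', ha'N, ha'A⟩ := SetLike.exists_of_lt hlt'
    set a : G := (a' : G) with ha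
    have haR : a ∈ R' := a'.2
    have haA : a ∉ A := ha'A
    have haNA : ∀ x ∈ A, a * x * a⁻¹ ∈ A := fun x hx =>
      (Subgroup.mem_normalizer_iff.1 ha'N ⟨x, hAR' hx⟩).1 hx
    obtain ⟨haS, hac⟩ := hR'T haR
    -- the step element
    set j := n - 2 - k with hj
    obtain ⟨w, hwL, hwA, hzL, hzL'⟩ := exists_step h hs (j := j) (by omega) (by omega)
    set z : P := ⁅w, s⁆ with hz
    have hjk : n - 1 - (k + 1) = j := by omega
    have hjk' : n - 1 - k = j + 1 := by omega
    have hzW : (z : G) ∈ W P n (k + 1) := mem_W.2 (by rw [hjk]; exact hzL)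
    have hWA : W P n (k + 1) ≤ A := Subgroup.map_mono le_sup_right
    by_cases hmove : ∀ x ∈ W P n (k + 1), ⁅a, x⁆ ∈ W P n k
    · -- `a` fixes the next factor
      have haS' : a ∈ stab h (k + 1) := fun i hi x hx => by
        rcases Nat.lt_or_ge i k with hik | hik
        · exact haS i hik x hx
        · obtain rfl : i = k := by omega
          exact hmove x hx
      set T' := centMod h (s : G) (k + 1) with hT'
      set D := A ⊔ Subgroup.zpowers a with hD
      have hDR : D ≤ R' := sup_le hAR' (Subgroup.zpowers_le.2 haR)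
      have hsS : (s : G) ∈ stab h (k + 1) := le_stab h (by omega) s.2
      have hAS : A ≤ stab h (k + 1) := fun x hx =>
        le_stab h (by omega) ((Subgroup.map_subtype_le _) hx)
      have hDK : ∀ x ∈ D, x ∈ stab h (k + 1) ∧ ⁅x, (s : G)⁆ ∈ W P n k := fun x hx =>
        ⟨(sup_le hAS (Subgroup.zpowers_le.2 haS')) hx, ((sup_le hAT (Subgroup.zpowers_le.2
          (show a ∈ T from ⟨haS, hac⟩))) hx).2⟩
      have hDT' : D ≤ T' := fun x hx => ⟨(hDK x hx).1, W_mono k.le_succ (hDK x hx).2⟩
      have hDp : IsPGroup p D := hR'p.to_le hDR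
      have hDcard : p ^ (k + 3) ≤ Nat.card D := by
        have hltD : A < D := lt_of_le_of_ne le_sup_left fun he =>
          haA (he.symm ▸ Subgroup.mem_sup_right (Subgroup.mem_zpowers a))
        have hne : Nat.card A ≠ Nat.card D := fun he =>
          hltD.ne (Subgroup.eq_of_le_of_card_ge hltD.le he.ge)
        obtain ⟨e, he⟩ := IsPGroup.iff_card.1 hDp
        have := Subgroup.card_le_of_le hltD.le
        rw [hAcard, he] at this hne
        rw [he]
        refine Nat.pow_le_pow_right hp.out.pos ?_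
        rcases (Nat.pow_le_pow_iff_right hp.out.one_lt).1 this |>.lt_or_eq with h1 | h1
        · omega
        · exact absurd (by rw [h1]) hne
      have hDmax : ∀ Q : Sylow p T', D.subgroupOf T' ≤ Q → (Q : Subgroup T') = D.subgroupOf T' := by
        intro Q hQD
        refine (Subgroup.eq_of_le_of_card_ge hQD ?_).symm
        have h1 := hIH ((Q : Subgroup T').map T'.subtype) (Q.2.map _) (Subgroup.map_subtype_le _)
        rw [Subgroup.card_map_of_injective T'.subtype_injective] at h1
        rw [Nat.card_congr (Subgroup.subgroupOfEquivOfLe hDT').toEquiv]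
        exact h1.trans hDcard
      obtain ⟨Q1, hQ1⟩ := (hDp.comap_of_injective T'.subtype T'.subtype_injective).exists_le_sylow
      have hwT' : (w : G) ∈ T' := ⟨le_stab h (by omega) w.2, hzW⟩
      obtain ⟨Q2, hQ2⟩ := ((hAp.comap_of_injective T'.subtype T'.subtype_injective).to_le
        (le_refl _)).exists_le_sylow
      obtain ⟨Q3, hQ3⟩ := (show IsPGroup p (Subgroup.zpowers (⟨(w : G), hwT'⟩ : T')) from by
        obtain ⟨e, he⟩ := IsPGroup.iff_orderOf.1 h.isPGroup w
        exact IsPGroup.of_card (n := e) (by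
          rw [Nat.card_zpowers, Subgroup.orderOf_mk, Subgroup.orderOf_coe, he])).exists_le_sylow
      obtain ⟨g, hg⟩ := MulAction.exists_smul_eq T' Q1 Q3
      have hwQ : (⟨(w : G), hwT'⟩ : T') ∈ ((g • Q1 : Sylow p T') : Subgroup T') :=
        hg ▸ hQ3 (Subgroup.mem_zpowers _)
      rw [show ((g • Q1 : Sylow p T') : Subgroup T') = MulAut.conj g • (Q1 : Subgroup T') from rfl,
        hDmax Q1 hQ1] at hwQ
      obtain ⟨x, hx, hxw⟩ := hwQ
      have hxD : (x : G) ∈ D := hx
      have hgx : (g : G) * x * (g : G)⁻¹ = w := congrArg Subtype.val hxw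
      obtain ⟨hgS, hgc⟩ := g.2
      have hgiS : (g : G)⁻¹ ∈ stab h (k + 1) := inv_mem hgS
      set u := (s : G)⁻¹ * ((g : G)⁻¹ * s * g) with hu
      have huW : u ∈ W P n (k + 1) := by
        rw [show u = ((g : G) * s)⁻¹ * ((⁅(g : G), (s : G)⁆)⁻¹) * ((g : G) * s) by
          rw [hu, commutatorElement_def]; group]
        have := Stab.conj_mem h (inv_mem (mul_mem hgS hsS)) le_rfl (inv_mem hgc)
        rwa [inv_inv] at this
      obtain ⟨hxS, hxc⟩ := hDK x hxD
      have hwW : ⁅(w : G), (s : G)⁆ ∈ W P n k := by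
        have e : ⁅(w : G), (s : G)⁆ =
            g * (⁅(x : G), (s : G)⁆ * (s * ⁅(x : G), u⁆ * (s : G)⁻¹)) * (g : G)⁻¹ := by
          rw [← hgx, hu]; simp only [commutatorElement_def]; group
        rw [e]
        exact Stab.conj_mem h hgS k.le_succ
          (mul_mem hxc (Stab.conj_mem h hsS k.le_succ (hxS k (Nat.lt_succ_self k) u huW)))
      exact hzL' (hjk' ▸ mem_W.1 (show ((z : P) : G) ∈ W P n k from hwW))
    -- `a` moves the next factor
    obtain ⟨v, hv, hvz⟩ := Subgroup.mem_map.1 (haNA z (hWA hzW))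
    rw [hjk] at hv
    obtain ⟨s', hs', y, hy, rfl⟩ := Subgroup.mem_sup_of_normal_right.1 hv
    obtain ⟨i, rfl⟩ := Subgroup.mem_zpowers_iff.1 hs'
    have hL : L P j = Subgroup.zpowers z ⊔ L P (j + 1) := layer_eq h (by omega) (by omega) hzL hzL'
    rw [hL] at hy
    obtain ⟨z', hz', y', hy', rfl⟩ := Subgroup.mem_sup_of_normal_right.1 hy
    obtain ⟨l, rfl⟩ := Subgroup.mem_zpowers_iff.1 hz'
    set q := QuotientGroup.mk' (L P (j + 1))
    have hzp : q z ^ p = 1 := by
      rw [← map_pow]
      refine (QuotientGroup.eq_one_iff _).2 ?_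
      have hzp := (pow_layer h hs j (by omega) z hzL).1
      exact L_mono (by have := hp.out.two_le; omega) hzp
    by_cases hi : (p : ℤ) ∣ i
    · -- then `a` normalizes the next factor and hence centralizes it
      apply hmove
      have hazW : a * (z : G) * a⁻¹ ∈ W P n (k + 1) := by
        have hvz' : ((s ^ i * (z ^ l * y') : P) : G) = a * (z : G) * a⁻¹ := hvz
        rw [← hvz']
        refine mem_W.2 ?_
        rw [hjk]
        obtain ⟨l', rfl⟩ := hi
        rw [zpow_mul, zpow_natCast]
        exact mul_mem (zpow_mem (L_mono (by omega) (pow_mem_top h hs)) l')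
          (mul_mem (zpow_mem hzL l) (L_mono j.le_succ hy'))
      set R2 := R' ⊓ Subgroup.normalizer (W P n (k + 1) : Set G) with hR2
      have haN : a ∈ Subgroup.normalizer (W P n (k + 1) : Set G) := by
        have hle : (W P n (k + 1)).map (MulAut.conj a).toMonoidHom ≤ W P n (k + 1) := by
          rintro _ ⟨x, hx, rfl⟩
          obtain ⟨x, hx', rfl⟩ := hx
          rw [hjk, hL] at hx'
          obtain ⟨z'', hz'', y'', hy'', rfl⟩ := Subgroup.mem_sup_of_normal_right.1 hx'
          obtain ⟨l'', rfl⟩ := Subgroup.mem_zpowers_iff.1 hz''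
          show MulAut.conj a ((z ^ l'' * y'' : P) : G) ∈ _
          rw [Subgroup.coe_mul, Subgroup.coe_zpow, map_mul, map_zpow]
          exact mul_mem (zpow_mem hazW l'')
            (W_mono k.le_succ (Stab.conj_mem h haS le_rfl (mem_W.2 (hjk' ▸ hy''))))
        have heq := Subgroup.eq_of_le_of_card_ge hle
          (by rw [Subgroup.card_map_of_injective (MulAut.conj a).injective])
        refine Subgroup.mem_normalizer_iff.2 fun x => ⟨fun hx => hle ⟨x, hx, rfl⟩, fun hx => ?_⟩
        rw [← heq] at hx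
        obtain ⟨y, hy, hyx⟩ := hx
        exact (MulAut.conj a).injective hyx ▸ hy
      have hW1 : W P n (k + 1) ≤ R2 := le_inf (hWA.trans hAR') Subgroup.le_normalizer
      have hW0 : W P n k ≤ R2 := (W_mono k.le_succ).trans hW1
      have hn1 : ((W P n (k + 1)).subgroupOf R2).Normal :=
        (Subgroup.normal_subgroupOf_iff_le_normalizer hW1).2 inf_le_right
      have hn0 : ((W P n k).subgroupOf R2).Normal := by
        refine ⟨fun x hx g => ?_⟩
        exact Stab.conj_mem h (hR'T g.2.1).1 le_rfl hx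
      set r := QuotientGroup.mk' ((W P n k).subgroupOf R2)
      have hcard : Nat.card (((W P n (k + 1)).subgroupOf R2).map r) = p := by
        rw [← Subgroup.relIndex_bot_left, ← Subgroup.relIndex_comap, MonoidHom.comap_bot,
          QuotientGroup.ker_mk']
        have h1 := Subgroup.relIndex_mul_relIndex ⊥ ((W P n k).subgroupOf R2)
          ((W P n (k + 1)).subgroupOf R2) bot_le (fun x hx => W_mono k.le_succ hx)
        rw [Subgroup.relIndex_bot_left, Subgroup.relIndex_bot_left,
          Nat.card_congr (Subgroup.subgroupOfEquivOfLe hW0).toEquiv,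
          Nat.card_congr (Subgroup.subgroupOfEquivOfLe hW1).toEquiv, card_W h (by omega),
          card_W h (by omega), pow_succ] at h1
        exact Nat.eq_of_mul_eq_mul_left (pow_pos hp.out.pos k) h1
      have := hn1.map r (QuotientGroup.mk'_surjective _)
      have hcen := PGroups.le_center_of_card_eq_prime ((hR'p.to_le inf_le_left).to_quotient _) hcard
      intro x hx
      have h1 := Subgroup.mem_center_iff.1
        (hcen (Subgroup.mem_map_of_mem r (show (⟨x, hW1 hx⟩ : R2) ∈ _ from hx))) (r ⟨a, haR, haN⟩)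
      rw [← commutatorElement_eq_one_iff_mul_comm, ← map_commutatorElement] at h1
      exact Subgroup.mem_subgroupOf.1 ((QuotientGroup.eq_one_iff _).1 h1)
    -- an element of the stabilizer moving the next factor onto a power of `s`
    have hzc : ∀ x : P, q z * q x = q x * q z := fun x => mk_commute hzL x
    obtain ⟨i', b, hib⟩ :=
      ((Nat.prime_iff_prime_int.1 hp.out).irreducible.coprime_iff_not_dvd).2 hi
    set t : ℤ := -(l * b) with ht
    have hws : q w * q s * (q w)⁻¹ = q z * q s := by
      rw [← map_inv, ← map_mul, ← map_mul, ← map_mul, hz, commutatorElement_def]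
      congr 1; group
    have hwt : ∀ m : ℤ, (q w) ^ m * q s * ((q w) ^ m)⁻¹ = q z ^ m * q s := by
      intro m
      have hc : Commute (q w) (q z) := (hzc w).symm
      induction m using Int.induction_on with
      | zero =>
        erw [zpow_zero, zpow_zero]
        group
      | succ m ihm =>
        rw [add_comm (m : ℤ) 1, zpow_add, zpow_add, zpow_one, zpow_one,
          show q w * q w ^ (m : ℤ) * q s * (q w * q w ^ (m : ℤ))⁻¹ =
            q w * (q w ^ (m : ℤ) * q s * (q w ^ (m : ℤ))⁻¹) * (q w)⁻¹ by group, ihm,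
          show q w * (q z ^ (m : ℤ) * q s) * (q w)⁻¹ =
            (q w * q z ^ (m : ℤ) * (q w)⁻¹) * (q w * q s * (q w)⁻¹) by group, hws,
          (hc.zpow_right (m : ℤ)).eq, mul_inv_cancel_right, ← mul_assoc,
          ((Commute.refl (q z)).zpow_left (m : ℤ)).eq]
      | pred m ihm =>
        rw [sub_eq_add_neg, add_comm (-(m : ℤ)) (-1), zpow_add, zpow_add, zpow_neg_one, zpow_neg_one,
          show (q w)⁻¹ * q w ^ (-(m : ℤ)) * q s * ((q w)⁻¹ * q w ^ (-(m : ℤ)))⁻¹ =
            (q w)⁻¹ * (q w ^ (-(m : ℤ)) * q s * (q w ^ (-(m : ℤ)))⁻¹) * q w by group, ihm,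
          show (q w)⁻¹ * (q z ^ (-(m : ℤ)) * q s) * q w =
            ((q w)⁻¹ * q z ^ (-(m : ℤ)) * q w) * ((q w)⁻¹ * q s * q w) by group,
          (hc.inv_left.zpow_right (-(m : ℤ))).eq, inv_mul_cancel_right]
        have : (q w)⁻¹ * q s * q w = (q z)⁻¹ * q s := by
          have e : (q w)⁻¹ * (q z * q s) * q w = q s := by rw [← hws]; group
          rw [show (q w)⁻¹ * (q z * q s) * q w = ((q w)⁻¹ * q z) * (q s * q w) by group,
            hc.inv_left.eq] at e
          calc (q w)⁻¹ * q s * q w = (q z)⁻¹ * (q z * (q w)⁻¹ * (q s * q w)) := by group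
            _ = _ := by rw [e]
        rw [this, ← mul_assoc, ((Commute.refl (q z)).inv_right.zpow_left (-(m : ℤ))).eq]
    set g := ((w ^ t : P) : G) * a with hg
    have hgS : g ∈ stab h k := mul_mem (le_stab h (by omega) (w ^ t).2) haS
    set x := w ^ t * (s ^ i * (z ^ l * y')) * (w ^ t)⁻¹ with hx
    have hgz : g * (z : G) * g⁻¹ = x := by
      rw [hg, hx, Subgroup.coe_mul, Subgroup.coe_mul, Subgroup.coe_inv,
        show ((s ^ i * (z ^ l * y') : P) : G) = a * (z : G) * a⁻¹ from hvz]
      group
    have hxq : q x = q s ^ i := by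
      have hqy : q y' = 1 := (QuotientGroup.eq_one_iff y').2 hy'
      have hc : ∀ m : ℤ, Commute (q w ^ t) (q z ^ m) := fun m =>
        (show Commute (q w) (q z) from (hzc w).symm).zpow_zpow t m
      rw [hx, map_mul, map_mul, map_mul, map_mul, map_inv, map_zpow, map_zpow, map_zpow, hqy,
        mul_one,
        show q w ^ t * (q s ^ i * q z ^ l) * (q w ^ t)⁻¹ =
          (q w ^ t * q s * (q w ^ t)⁻¹) ^ i * (q w ^ t * q z ^ l * (q w ^ t)⁻¹) by
          rw [conj_zpow]; group,
        hwt, (hc l).eq, mul_inv_cancel_right,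
        ((show Commute (q z) (q s) from hzc s).zpow_left t).mul_zpow, ← zpow_mul,
        mul_assoc, ((show Commute (q z) (q s) from hzc s).symm.zpow_zpow i l).eq, ← mul_assoc, ← zpow_add,
        show t * i + l = (p : ℤ) * (l * i') by rw [ht]; linear_combination (-l) * hib,
        zpow_mul, zpow_natCast, hzp, one_zpow, one_mul]
    have hxy : ∃ y ∈ L P (j + 1), x = s ^ i * y := by
      rw [← map_zpow] at hxq
      obtain ⟨y, hy, hyx⟩ := (QuotientGroup.mk'_eq_mk' (N := L P (j + 1))).1 hxq.symm
      exact ⟨y, hy, hyx.symm⟩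
    obtain ⟨y₀, hy₀, hxy⟩ := hxy
    rcases Nat.lt_or_ge k 2 with hk2 | hk2
    · -- inside the normal subgroup
      have hWN := hN k (by omega) (by omega)
      have h1 : ((x : P) : G) ∈ N := hgz ▸ ‹N.Normal›.conj_mem _ (hWN hzW) g
      rw [hxy, Subgroup.coe_mul, Subgroup.coe_zpow,
        mul_mem_cancel_right (hWN (W_mono k.le_succ (mem_W.2 (hjk'.symm ▸ hy₀))))] at h1
      have hsp : (s : G) ^ p ∈ N := by
        refine hWN ?_
        rw [← SubgroupClass.coe_pow]
        exact mem_W.2 (L_mono (by omega) (pow_mem_top h hs))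
      apply hsN
      rw [show (s : G) = ((s : G) ^ p) ^ i' * ((s : G) ^ i) ^ b by
        rw [← zpow_natCast (s : G) p, ← zpow_mul, ← zpow_mul, ← zpow_add, mul_comm (p : ℤ),
          mul_comm i, hib, zpow_one]]
      exact mul_mem (zpow_mem hsp i') (zpow_mem h1 b)
    · -- two-step centralizers
      apply hs.2 (j + 1) (by omega) (by omega)
      have hB : x ∈ B P (j + 1) := by
        intro v hv
        have hv' : (v : G) ∈ W P n k := mem_W.2 (hjk'.symm ▸ hv)
        set v' := g⁻¹ * (v : G) * g⁻¹⁻¹ with hv''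
        have hv'W : v' ∈ W P n k := Stab.conj_mem h (inv_mem hgS) le_rfl hv'
        obtain ⟨v₀, hv₀, hv₀'⟩ := Subgroup.mem_map.1 hv'W
        rw [hjk'] at hv₀
        have h1 : ⁅v₀, z⁆ ∈ L P (n - 1 - (k - 2)) :=
          L_mono (by omega) (commutator_mem hv₀ hzL)
        have h2 := Stab.conj_mem h hgS (show k - 2 ≤ k by omega) (mem_W.2 h1)
        rw [show j + 1 + 2 = n - 1 - (k - 2) by omega, ← mem_W (P := P) (n := n)]
        have e : ((⁅v, x⁆ : P) : G) = g * ((⁅v₀, z⁆ : P) : G) * g⁻¹ := by
          rw [show ((⁅v, x⁆ : P) : G) = ⁅(v : G), ((x : P) : G)⁆ from map_commutatorElement P.subtype _ _,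
            show ((⁅v₀, z⁆ : P) : G) = ⁅(v₀ : G), (z : G)⁆ from map_commutatorElement P.subtype _ _,
            ← hgz, show (v₀ : G) = v' from hv₀', hv'']
          simp only [commutatorElement_def]; group
        rw [e]; exact h2
      rw [hxy] at hB
      have hyB : y₀ ∈ B P (j + 1) := L_one_le_B _ (L_mono (by omega) hy₀)
      rw [mul_mem_cancel_right hyB] at hB
      rw [show s = (s ^ p) ^ i' * (s ^ i) ^ b by
        rw [← zpow_natCast s p, ← zpow_mul, ← zpow_mul, ← zpow_add, mul_comm (p : ℤ), mul_comm i,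
          hib, zpow_one]]
      exact mul_mem (zpow_mem (L_one_le_B _ (pow_mem_L_one h s)) i') (zpow_mem hB b)

/-- In a group whose Sylow subgroup `P` has maximal class an element of `P` outside all two-step
centralizers and outside a normal subgroup containing the first central terms has centralizer with
p-part `p ^ 2`. -/
theorem factorization_centralizer {P : Sylow p G} (h : MC p n (P : Subgroup G))
    {s : (P : Subgroup G)} (hs : Small n s) (N : Subgroup G) [N.Normal]
    (hN : ∀ k, k ≤ 1 → k + 3 ≤ n → W (P : Subgroup G) n (k + 1) ≤ N) (hsN : (s : G) ∉ N) :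
    (Nat.card (Subgroup.centralizer ({(s : G)} : Set G))).factorization p = 2 := by
  have hn := h.three_le
  have hSyl : ∀ R : Subgroup G, IsPGroup p R → Nat.card R ≤ p ^ n := fun R hR => by
    obtain ⟨Q, hQ⟩ := hR.exists_le_sylow
    refine (Subgroup.card_le_of_le hQ).trans (le_of_eq ?_)
    rw [← h.card]
    exact Q.card_eq_multiplicity.trans P.card_eq_multiplicity.symm
  set C := Subgroup.centralizer ({(s : G)} : Set G) with hC
  obtain ⟨Q⟩ : Nonempty (Sylow p C) := inferInstance
  have hle : C ≤ centMod h (s : G) 0 := fun g hg => by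
    refine ⟨fun j hj => absurd hj (by omega), ?_⟩
    rw [commutatorElement_eq_one_iff_mul_comm.2 (Subgroup.mem_centralizer_singleton_iff.1 hg)]
    exact one_mem _
  have h1 : Nat.card (Q : Subgroup C) ≤ p ^ 2 := by
    have := card_le_centMod h hs N hN hsN hSyl (k := 0) (by omega) _ (Q.2.map C.subtype)
      ((Subgroup.map_subtype_le _).trans hle)
    rwa [Subgroup.card_map_of_injective C.subtype_injective] at this
  have h2 : p ^ 2 ≤ Nat.card (Q : Subgroup C) := by
    set D := (Subgroup.centralizer ({s} : Set (P : Subgroup G))).map (P : Subgroup G).subtype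
    have hDC : D ≤ C := by
      rintro _ ⟨x, hx, rfl⟩
      exact Subgroup.mem_centralizer_singleton_iff.2
        (congrArg Subtype.val (Subgroup.mem_centralizer_singleton_iff.1 hx))
    have hDc : Nat.card (D.subgroupOf C) = p ^ 2 := by
      rw [Nat.card_congr (Subgroup.subgroupOfEquivOfLe hDC).toEquiv,
        Subgroup.card_map_of_injective (P : Subgroup G).subtype_injective, card_centralizer h hs]
    obtain ⟨Q', hQ'⟩ := (IsPGroup.of_card hDc).exists_le_sylow
    refine (hDc.symm.le.trans (Subgroup.card_le_of_le hQ')).trans (le_of_eq ?_)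
    exact Q'.card_eq_multiplicity.trans Q.card_eq_multiplicity.symm
  have h3 := le_antisymm h1 h2
  rw [Q.card_eq_multiplicity] at h3
  exact Nat.pow_right_injective hp.out.two_le h3

end CfsgLib.MaxClassP
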